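import Mathlib

/-!
# Babai's bound on the minimal degree of a primitive group

Orbital colourings: for a primitive group not containing the alternating group, a non-identity
element moves at least `(√n - 1) / 2` points.
-/

set_option autoImplicit false

open MulAction Equiv
open scoped Pointwise

namespace Cfsg.Agent.Lib.Perm.Babai

variable {G Ω : Type*} [Group G] [MulAction G Ω]

/-- Invariant equivalence relations on a primitive set are trivial. -/
theorem trivial_of_equiv (hprim : IsPreprimitive G Ω) (r : Ω → Ω → Prop) (hrefl : ∀ x, r x x)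
    (hsymm : ∀ x y, r x y → r y x) (htrans : ∀ x y z, r x y → r y z → r x z)
    (hinv : ∀ (h : G) x y, r x y → r (h • x) (h • y)) :
    (∀ x y, r x y → x = y) ∨ (∀ x y, r x y) := by
  by_contra hcon
  rw [not_or] at hcon
  obtain ⟨h1, h2⟩ := hcon
  push Not at h1 h2
  obtain ⟨x, y, hxy, hne⟩ := h1
  obtain ⟨u, v, huv⟩ := h2
  have hB : IsBlock G {z | r x z} := by
    rw [isBlock_iff_smul_eq_or_disjoint]
    intro g
    by_cases hdis : Disjoint (g • {z | r x z}) {z | r x z}
    · exact Or.inr hdis
    · left
      rw [Set.not_disjoint_iff] at hdis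
      obtain ⟨w, hw1, hw2⟩ := hdis
      obtain ⟨w', hw', rfl⟩ := Set.mem_smul_set.1 hw1
      have hgx : r x (g • x) := by
        have h3 : r (g • x) (g • w') := hinv g _ _ hw'
        exact htrans _ _ _ hw2 (hsymm _ _ h3)
      ext z
      constructor
      · intro hz
        obtain ⟨z', hz', rfl⟩ := Set.mem_smul_set.1 hz
        exact htrans _ _ _ hgx (hinv g _ _ hz')
      · intro hz
        refine Set.mem_smul_set.2 ⟨g⁻¹ • z, ?_, by simp⟩
        have h3 : r (g • x) z := htrans _ _ _ (hsymm _ _ hgx) hz
        have h4 := hinv g⁻¹ _ _ h3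
        simpa using h4
  rcases hprim.isTrivialBlock_of_isBlock hB with h | h
  · exact hne (h (hrefl x) hxy)
  · have hu : u ∈ {z | r x z} := by rw [h]; trivial
    have hv : v ∈ {z | r x z} := by rw [h]; trivial
    exact huv (htrans _ _ _ (hsymm _ _ hu) hv)

/-- Strong connectivity of orbitals: a nonempty out-closed set is everything. -/
theorem out_closed_univ [Finite Ω] (hprim : IsPreprimitive G Ω) (R : Ω → Ω → Prop)
    (hR : ∀ (h : G) x y, R x y → R (h • x) (h • y)) (hirr : ∀ x, ¬ R x x) (hex : ∀ x, ∃ y, R x y)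
    (W : Set Ω) (hW : ∀ x y, x ∈ W → R x y → y ∈ W) (hne : W.Nonempty) : W = Set.univ := by
  let r : Ω → Ω → Prop := fun x y => ∀ V : Set Ω, (∀ u v, u ∈ V → R u v → v ∈ V) → x ∈ V → y ∈ V
  have hrefl : ∀ x, r x x := fun x V _ hx => hx
  have htrans : ∀ x y z, r x y → r y z → r x z := fun x y z h1 h2 V hV hx => h2 V hV (h1 V hV hx)
  have hinv : ∀ (h : G) x y, r x y → r (h • x) (h • y) := by
    intro h x y hxy V hV hx
    have h1 := hxy ((fun w => h • w) ⁻¹' V) (by
      intro u v hu huv
      exact hV _ _ hu (hR h _ _ huv)) hx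
    exact h1
  have hcard : ∀ (h : G) x, {y | r x y}.ncard ≤ {y | r (h • x) y}.ncard := by
    intro h x
    have h1 : (fun w => h • w) '' {y | r x y} ⊆ {y | r (h • x) y} := by
      rintro _ ⟨y, hy, rfl⟩
      exact hinv h _ _ hy
    have h2 := Set.ncard_le_ncard h1 (Set.toFinite _)
    rwa [Set.ncard_image_of_injective _ (MulAction.injective h)] at h2
  have hcard' : ∀ x y, {z | r x z}.ncard = {z | r y z}.ncard := by
    intro x y
    have : IsPretransitive G Ω := hprim.toIsPretransitive
    obtain ⟨h, rfl⟩ := exists_smul_eq G x y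
    apply le_antisymm (hcard h x)
    have := hcard h⁻¹ (h • x)
    rwa [inv_smul_smul] at this
  have hsymm : ∀ x y, r x y → r y x := by
    intro x y hxy
    have hsub : {z | r y z} ⊆ {z | r x z} := fun z hz => htrans _ _ _ hxy hz
    have heq := Set.eq_of_subset_of_ncard_le hsub (hcard' x y).le (Set.toFinite _)
    have : x ∈ {z | r y z} := by rw [heq]; exact hrefl x
    exact this
  rcases trivial_of_equiv hprim r hrefl hsymm htrans hinv with h | h
  · obtain ⟨x, hx⟩ := hne
    obtain ⟨y, hy⟩ := hex x
    have : r x y := fun V hV hxV => hV _ _ hxV hy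
    rw [h x y this] at hy
    exact (hirr y hy).elim
  · obtain ⟨x, hx⟩ := hne
    ext y
    simp only [Set.mem_univ, iff_true]
    exact h x y W hW hx

section degrees

variable [Fintype Ω]

open Classical in
/-- Out-neighbours. -/
noncomputable def outN (R : Ω → Ω → Prop) (x : Ω) : Finset Ω := Finset.univ.filter (R x)

open Classical in
/-- In-neighbours. -/
noncomputable def innN (R : Ω → Ω → Prop) (y : Ω) : Finset Ω := Finset.univ.filter (fun x => R x y)

@[simp] theorem mem_outN (R : Ω → Ω → Prop) (x y : Ω) : y ∈ outN R x ↔ R x y := by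
  simp [outN]

@[simp] theorem mem_innN (R : Ω → Ω → Prop) (x y : Ω) : x ∈ innN R y ↔ R x y := by
  simp [innN]

theorem card_outN_le (R : Ω → Ω → Prop) (hR : ∀ (h : G) x y, R x y → R (h • x) (h • y))
    (h : G) (x : Ω) : (outN R x).card ≤ (outN R (h • x)).card := by
  apply Finset.card_le_card_of_injOn (fun y => h • y)
  · intro y hy
    simp only [Finset.mem_coe, mem_outN] at hy ⊢
    exact hR h _ _ hy
  · intro a _ b _ hab
    exact MulAction.injective h hab

theorem card_innN_le (R : Ω → Ω → Prop) (hR : ∀ (h : G) x y, R x y → R (h • x) (h • y))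
    (h : G) (x : Ω) : (innN R x).card ≤ (innN R (h • x)).card := by
  apply Finset.card_le_card_of_injOn (fun y => h • y)
  · intro y hy
    simp only [Finset.mem_coe, mem_innN] at hy ⊢
    exact hR h _ _ hy
  · intro a _ b _ hab
    exact MulAction.injective h hab

theorem card_outN_eq [IsPretransitive G Ω] (R : Ω → Ω → Prop)
    (hR : ∀ (h : G) x y, R x y → R (h • x) (h • y)) (x y : Ω) :
    (outN R x).card = (outN R y).card := by
  obtain ⟨h, rfl⟩ := exists_smul_eq G x y
  apply le_antisymm (card_outN_le R hR h x)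
  have := card_outN_le R hR h⁻¹ (h • x)
  rwa [inv_smul_smul] at this

theorem card_innN_eq [IsPretransitive G Ω] (R : Ω → Ω → Prop)
    (hR : ∀ (h : G) x y, R x y → R (h • x) (h • y)) (x y : Ω) :
    (innN R x).card = (innN R y).card := by
  obtain ⟨h, rfl⟩ := exists_smul_eq G x y
  apply le_antisymm (card_innN_le R hR h x)
  have := card_innN_le R hR h⁻¹ (h • x)
  rwa [inv_smul_smul] at this

/-- In-degree equals out-degree. -/
theorem card_innN_eq_card_outN [IsPretransitive G Ω] (R : Ω → Ω → Prop)
    (hR : ∀ (h : G) x y, R x y → R (h • x) (h • y)) (x y : Ω) :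
    (innN R x).card = (outN R y).card := by
  classical
  have h := Finset.sum_card_bipartiteAbove_eq_sum_card_bipartiteBelow (s := (Finset.univ : Finset Ω))
    (t := (Finset.univ : Finset Ω)) R
  have h1 : ∀ a : Ω, (Finset.bipartiteAbove R Finset.univ a).card = (outN R y).card := by
    intro a
    rw [← card_outN_eq (G := G) R hR a y]
    rfl
  have h2 : ∀ b : Ω, (Finset.bipartiteBelow R Finset.univ b).card = (innN R x).card := by
    intro b
    rw [← card_innN_eq (G := G) R hR b x]
    rfl
  rw [Finset.sum_congr rfl (fun a _ => h1 a), Finset.sum_congr rfl (fun b _ => h2 b)] at h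
  simp only [Finset.sum_const, smul_eq_mul] at h
  have hpos : 0 < Finset.univ.card (α := Ω) := Finset.card_pos.2 ⟨x, Finset.mem_univ _⟩
  exact (Nat.eq_of_mul_eq_mul_left hpos h).symm

/-- The basic count: if out-neighbourhoods differ little, the degree is small compared to `n`. -/
theorem count_overlap [DecidableEq Ω] [IsPretransitive G Ω] (R : Ω → Ω → Prop)
    (hR : ∀ (h : G) x y, R x y → R (h • x) (h • y)) (x : Ω) (m : ℕ)
    (hm : ∀ x', x' ≠ x → (outN R x \ outN R x').card ≤ m) :
    (Fintype.card Ω - 1) * ((outN R x).card - m) ≤ (outN R x).card * ((outN R x).card - 1) := by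
  classical
  have h := Finset.sum_card_bipartiteAbove_eq_sum_card_bipartiteBelow
    (s := Finset.univ.erase x) (t := outN R x) R
  have h1 : ∀ a ∈ Finset.univ.erase x, (outN R x).card - m ≤
      (Finset.bipartiteAbove R (outN R x) a).card := by
    intro a ha
    have hne : a ≠ x := (Finset.mem_erase.1 ha).1
    have h2 := hm a hne
    have h3 : (outN R x \ outN R a).card + (Finset.bipartiteAbove R (outN R x) a).card
        = (outN R x).card := by
      have : Finset.bipartiteAbove R (outN R x) a = (outN R x).filter (fun z => z ∈ outN R a) := by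
        ext z
        simp [Finset.bipartiteAbove]
      rw [this, add_comm, Finset.sdiff_eq_filter, Finset.card_filter_add_card_filter_not]
    omega
  have h2 : ∀ b ∈ outN R x, (Finset.bipartiteBelow R (Finset.univ.erase x) b).card
      = (outN R x).card - 1 := by
    intro b hb
    have : Finset.bipartiteBelow R (Finset.univ.erase x) b = (innN R b).erase x := by
      ext z
      simp [Finset.bipartiteBelow]
    rw [this, Finset.card_erase_of_mem (by simpa using hb),
      card_innN_eq_card_outN (G := G) R hR b x]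
  have hle : (Finset.univ.erase x).card * ((outN R x).card - m) ≤
      ∑ a ∈ Finset.univ.erase x, (Finset.bipartiteAbove R (outN R x) a).card :=
    Finset.card_nsmul_le_sum _ _ _ h1
  rw [h, Finset.sum_congr rfl h2, Finset.sum_const, smul_eq_mul, Finset.card_erase_of_mem
    (Finset.mem_univ _), Finset.card_univ] at hle
  exact hle

end degrees

/-- Same orbit of ordered pairs. -/
def Same (G : Type*) {Ω : Type*} [Group G] [MulAction G Ω] (u v u' v' : Ω) : Prop :=
  ∃ h : G, h • u = u' ∧ h • v = v'

theorem Same.refl (u v : Ω) : Same G u v u v := ⟨1, by simp, by simp⟩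

theorem Same.symm {u v u' v' : Ω} (h : Same G u v u' v') : Same G u' v' u v := by
  obtain ⟨t, rfl, rfl⟩ := h
  exact ⟨t⁻¹, by simp, by simp⟩

theorem Same.trans {u v u' v' u'' v'' : Ω} (h : Same G u v u' v') (h' : Same G u' v' u'' v'') :
    Same G u v u'' v'' := by
  obtain ⟨t, rfl, rfl⟩ := h
  obtain ⟨t', rfl, rfl⟩ := h'
  exact ⟨t' * t, by simp [mul_smul], by simp [mul_smul]⟩

theorem Same.smul (t : G) (u v : Ω) : Same G u v (t • u) (t • v) := ⟨t, rfl, rfl⟩

theorem Same.of_smul {t : G} {a b u v : Ω} (h : Same G a b u v) :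
    Same G a b (t • u) (t • v) := h.trans (Same.smul t u v)

section colours

variable [Fintype Ω]

variable (G) in
open Classical in
/-- Points distinguishing `x` and `y`. -/
noncomputable def D (x y : Ω) : Finset Ω := Finset.univ.filter (fun z => ¬ Same G x z y z)

@[simp] theorem mem_D (x y z : Ω) : z ∈ D G x y ↔ ¬ Same G x z y z := by
  simp [D]

theorem D_triangle [DecidableEq Ω] (x y w : Ω) : D G x w ⊆ D G x y ∪ D G y w := by
  intro z hz
  rw [mem_D] at hz
  rw [Finset.mem_union, mem_D, mem_D]
  by_contra hcon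
  rw [not_or, not_not, not_not] at hcon
  exact hz (hcon.1.trans hcon.2)

theorem D_symm (x y : Ω) : D G x y = D G y x := by
  ext z
  simp only [mem_D]
  exact not_congr ⟨Same.symm, Same.symm⟩

theorem left_mem_D {x y : Ω} (h : x ≠ y) : x ∈ D G x y := by
  rw [mem_D]
  rintro ⟨t, h1, h2⟩
  exact h (h2.symm.trans h1)

theorem card_D_le (t : G) (x y : Ω) : (D G x y).card ≤ (D G (t • x) (t • y)).card := by
  apply Finset.card_le_card_of_injOn (fun z => t • z)
  · intro z hz
    simp only [Finset.mem_coe, mem_D] at hz ⊢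
    intro hcon
    apply hz
    exact (Same.smul t x z).trans (hcon.trans (Same.smul t y z).symm)
  · intro a _ b _ hab
    exact MulAction.injective t hab

theorem card_D_smul (t : G) (x y : Ω) : (D G (t • x) (t • y)).card = (D G x y).card := by
  apply le_antisymm _ (card_D_le t x y)
  have := card_D_le t⁻¹ (t • x) (t • y)
  rwa [inv_smul_smul, inv_smul_smul] at this

theorem card_D_of_same {x y x' y' : Ω} (h : Same G x y x' y') :
    (D G x' y').card = (D G x y).card := by
  obtain ⟨t, rfl, rfl⟩ := h
  exact card_D_smul t x y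

end colours

section main

variable [Fintype Ω]

/-- Every point distinguishes: `k * d ≥ n - 1`. -/
theorem degree_mul_ge [DecidableEq Ω] (hprim : IsPreprimitive G Ω) {a b : Ω} (hab : a ≠ b) (u : Ω) :
    Fintype.card Ω - 1 ≤ (outN (Same G a b) u).card * (D G a b).card := by
  have htr : IsPretransitive G Ω := hprim.toIsPretransitive
  have hirr : ∀ x, ¬ Same G a b x x := by
    rintro x ⟨t, h1, h2⟩
    exact hab (MulAction.injective t (h1.trans h2.symm))
  have hex : ∀ x, ∃ y, Same G a b x y := by
    intro x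
    obtain ⟨t, ht⟩ := exists_smul_eq G a x
    exact ⟨t • b, t, ht, rfl⟩
  have hcov : Finset.univ.erase u ⊆ (outN (Same G a b) u).biUnion (fun v => D G u v) := by
    intro z hz
    have hzu : z ≠ u := (Finset.mem_erase.1 hz).1
    by_contra hcon
    have hall : ∀ v, Same G a b u v → Same G u z v z := by
      intro v hv
      by_contra hn
      exact hcon (Finset.mem_biUnion.2 ⟨v, by simpa using hv, by simpa using hn⟩)
    have hcl := out_closed_univ hprim (Same G a b) (fun h x y hxy => Same.of_smul hxy) hirr hex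
      {w | Same G u z w z} (by
        intro w v hw hwv
        obtain ⟨t, rfl, ht⟩ := hw
        have h1 : Same G a b u (t⁻¹ • v) := by
          have := Same.of_smul (t := t⁻¹) hwv
          simpa using this
        have h3 := Same.of_smul (t := t) (hall _ h1)
        simpa [ht] using h3) ⟨u, Same.refl _ _⟩
    have hz' : z ∈ {w | Same G u z w z} := by rw [hcl]; trivial
    obtain ⟨t, h1, h2⟩ := hz'
    exact hzu (MulAction.injective t (h2.trans h1.symm))
  have hle := Finset.card_le_card hcov
  rw [Finset.card_erase_of_mem (Finset.mem_univ _), Finset.card_univ] at hle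
  refine hle.trans ((Finset.card_biUnion_le).trans ?_)
  have : ∀ v ∈ outN (Same G a b) u, (D G u v).card = (D G a b).card :=
    fun v hv => card_D_of_same ((mem_outN _ _ _).1 hv)
  rw [Finset.sum_congr rfl this]
  simp

/-- The arithmetic of the large degree case. -/
theorem arith_large (n k e d : ℕ) (hn : n = k + e + 1) (hk : 4 * d < k) (hd : 1 ≤ d)
    (hI1 : (n - 1) * (k - 2 * d) ≤ k * (k - 1)) (hI2 : (n - 1) * (e - 2 * d) ≤ e * (e - 1))
    (hI3 : k ≤ e * e) : n ≤ (2 * d + 1) ^ 2 := by
  subst hn
  have hn1 : k + e + 1 - 1 = k + e := by omega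
  rw [hn1] at hI1 hI2
  rcases Nat.lt_or_ge (2 * d) e with he | he
  · -- e ≥ 2 d + 1
    obtain ⟨a, rfl⟩ : ∃ a, e = 2 * d + a := ⟨e - 2 * d, by omega⟩
    have ha : 1 ≤ a := by omega
    obtain ⟨b, rfl⟩ : ∃ b, k = 2 * d + b := ⟨k - 2 * d, by omega⟩
    have hb : 2 * d + 1 ≤ b := by omega
    have h1 : 2 * d + b + (2 * d + a) + 1 ≤ (2 * d + 1) ^ 2 := by
      have e1 : 2 * d + a - 2 * d = a := by omega
      have e2 : 2 * d + b - 2 * d = b := by omega
      rw [e1] at hI2
      rw [e2] at hI1
      have e3 : 2 * d + a - 1 = 2 * d - 1 + a := by omega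
      have e4 : 2 * d + b - 1 = 2 * d - 1 + b := by omega
      rw [e3] at hI2
      rw [e4] at hI1
      obtain ⟨c, hc⟩ : ∃ c, 2 * d - 1 = c := ⟨_, rfl⟩
      have hdc : 2 * d = c + 1 := by omega
      rw [hc] at hI1 hI2
      rw [hdc] at hI1 hI2 ⊢
      have hb' : c + 2 ≤ b := by omega
      -- hI1 : (c+1+b + (c+1+a)) * b ≤ (c+1+b) * (c+b)
      -- hI2 : (c+1+b + (c+1+a)) * a ≤ (c+1+a) * (c+a)
      have ha' : a ≤ 2 * c + 3 := by
        by_contra hcon
        have : 2 * c + 4 ≤ a := by omega
        nlinarith [mul_le_mul hb' this (by omega) (by omega), mul_le_mul this hb' (by omega) (by omega)]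
      have hb2 : b ≤ c * (c + 2) + 1 := by
        by_contra hcon
        have h5 : c * (c + 2) + 2 ≤ b := by omega
        have h6 : (c * (c + 2) + 2) * a ≤ b * a := Nat.mul_le_mul_right _ h5
        nlinarith [mul_le_mul ha (le_refl (c * (c+2))) (by omega) (by omega), Nat.zero_le (c * c), Nat.zero_le (a * c)]
      nlinarith
    exact h1
  · have h1 : k ≤ (2 * d) * (2 * d) := hI3.trans (Nat.mul_le_mul he he)
    nlinarith

/-- The case of large degree. -/
theorem case_large [DecidableEq Ω] (hprim : IsPreprimitive G Ω) {a b : Ω} (hab : a ≠ b)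
    (hnot2 : ¬ ∀ x y x' y' : Ω, x ≠ y → x' ≠ y' → Same G x y x' y') (u : Ω)
    (hk : 4 * (D G a b).card < (outN (Same G a b) u).card) :
    Fintype.card Ω ≤ (2 * (D G a b).card + 1) ^ 2 := by
  have htr : IsPretransitive G Ω := hprim.toIsPretransitive
  set R : Ω → Ω → Prop := Same G a b with hRdef
  set d := (D G a b).card with hd
  set k := (outN R u).card with hkdef
  have hRinv : ∀ (h : G) x y, R x y → R (h • x) (h • y) := fun h x y hxy => Same.of_smul hxy
  have hirr : ∀ x, ¬ R x x := by
    rintro x ⟨t, h1, h2⟩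
    exact hab (MulAction.injective t (h1.trans h2.symm))
  have hex : ∀ x, ∃ y, R x y := by
    intro x
    obtain ⟨t, ht⟩ := exists_smul_eq G a x
    exact ⟨t • b, t, ht, rfl⟩
  have hdeg : ∀ x, (outN R x).card = k := fun x => card_outN_eq (G := G) R hRinv x u
  have hindeg : ∀ x, (innN R x).card = k := fun x => card_innN_eq_card_outN (G := G) R hRinv x u
  have hDJ : ∀ x y, R x y → (D G x y).card = d := fun x y hxy => card_D_of_same hxy
  have hd1 : 1 ≤ d := Finset.card_pos.2 ⟨a, left_mem_D hab⟩
  -- two vertices with a common out-neighbour are close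
  have hdiff : ∀ x x' v, R x v → R x' v → (D G x x').card ≤ 2 * d := by
    intro x x' v h1 h2
    have h3 := Finset.card_le_card (D_triangle (G := G) x v x')
    have h4 := Finset.card_union_le (D G x v) (D G v x')
    rw [D_symm (G := G) v x', hDJ _ _ h1, hDJ _ _ h2] at h4
    rw [D_symm (G := G) v x'] at h3
    omega
  have hdiffN : ∀ x x', (outN R x \ outN R x').card ≤ (D G x x').card := by
    intro x x'
    apply Finset.card_le_card
    intro z hz
    rw [Finset.mem_sdiff, mem_outN, mem_outN] at hz
    rw [mem_D]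
    intro hs
    exact hz.2 (Same.trans hz.1 hs)
  -- the equivalence relation
  have hequiv := trivial_of_equiv hprim (fun x x' => ∃ z, R x z ∧ R x' z)
    (fun x => by obtain ⟨y, hy⟩ := hex x; exact ⟨y, hy, hy⟩)
    (fun x y ⟨z, h1, h2⟩ => ⟨z, h2, h1⟩)
    (by
      rintro x x' x'' ⟨v, h1, h2⟩ ⟨v', h3, h4⟩
      by_contra hcon
      have hA := (hdiffN x' x).trans (hdiff x' x v h2 h1)
      have hB := (hdiffN x' x'').trans (hdiff x' x'' v' h3 h4)
      have hsub : outN R x' ⊆ (outN R x' \ outN R x) ∪ (outN R x' \ outN R x'') := by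
        intro z hz
        rw [Finset.mem_union, Finset.mem_sdiff, Finset.mem_sdiff]
        by_contra hn
        rw [not_or, not_and_or, not_and_or, not_not, not_not] at hn
        have hzx := hn.1.resolve_left (fun h => h hz)
        have hzx'' := hn.2.resolve_left (fun h => h hz)
        exact hcon ⟨z, (mem_outN _ _ _).1 hzx, (mem_outN _ _ _).1 hzx''⟩
      have h5 := Finset.card_le_card hsub
      have h6 := Finset.card_union_le (outN R x' \ outN R x) (outN R x' \ outN R x'')
      rw [hdeg] at h5
      omega)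
    (by
      rintro h x x' ⟨z, h1, h2⟩
      exact ⟨h • z, hRinv h _ _ h1, hRinv h _ _ h2⟩)
  have huniv : ∀ x x', ∃ z, R x z ∧ R x' z := by
    rcases hequiv with h | h
    · exfalso
      have hk2 : 1 < (innN R u).card := by rw [hindeg]; omega
      obtain ⟨x, hx, x', hx', hne⟩ := Finset.one_lt_card.1 hk2
      rw [mem_innN] at hx hx'
      exact hne (h x x' ⟨u, hx, hx'⟩)
    · exact h
  have hall : ∀ x x' : Ω, (D G x x').card ≤ 2 * d := by
    intro x x'
    obtain ⟨z, h1, h2⟩ := huniv x x'
    exact hdiff x x' z h1 h2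
  -- the complementary relation
  let R' : Ω → Ω → Prop := fun x y => x ≠ y ∧ ¬ R x y
  have hR'inv : ∀ (h : G) x y, R' x y → R' (h • x) (h • y) := by
    rintro h x y ⟨h1, h2⟩
    refine ⟨fun h3 => h1 (MulAction.injective h h3), fun h3 => h2 ?_⟩
    have := hRinv h⁻¹ _ _ h3
    simpa using this
  set e := (outN R' u).card with hedef
  have hdeg' : ∀ x, (outN R' x).card = e := fun x => card_outN_eq (G := G) R' hR'inv x u
  have hn : Fintype.card Ω = k + e + 1 := by
    have h1 : Finset.univ.erase u = outN R u ∪ outN R' u := by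
      ext z
      simp only [Finset.mem_erase, Finset.mem_univ, and_true, Finset.mem_union, mem_outN, R']
      constructor
      · intro hz
        by_cases hr : R u z
        · exact Or.inl hr
        · exact Or.inr ⟨hz.symm, hr⟩
      · rintro (h | h)
        · rintro rfl
          exact hirr _ h
        · exact h.1.symm
    have h2 : Disjoint (outN R u) (outN R' u) := by
      rw [Finset.disjoint_left]
      intro z h3 h4
      rw [mem_outN] at h3 h4
      exact h4.2 h3
    have h3 := congrArg Finset.card h1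
    rw [Finset.card_erase_of_mem (Finset.mem_univ _), Finset.card_univ,
      Finset.card_union_of_disjoint h2] at h3
    have hpos : 0 < Fintype.card Ω := Fintype.card_pos_iff.2 ⟨u⟩
    omega
  -- a pair with another colour
  obtain ⟨c, c', hcc'⟩ : ∃ c c', R' c c' := by
    by_contra hcon
    push Not at hcon
    apply hnot2
    intro x y x' y' hxy hxy'
    have h1 : R x y := by
      by_contra hn
      exact hcon x y ⟨hxy, hn⟩
    have h2 : R x' y' := by
      by_contra hn
      exact hcon x' y' ⟨hxy', hn⟩
    exact Same.trans (Same.symm h1) h2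
  -- I1
  have hI1 := count_overlap (G := G) R hRinv u (2 * d) (fun x' _ => (hdiffN u x').trans (hall u x'))
  -- I2
  have hI2 := count_overlap (G := G) R' hR'inv u (2 * d) (fun x' hx' => by
    refine le_trans (Finset.card_le_card ?_) (hall u x')
    intro z hz
    rw [Finset.mem_sdiff, mem_outN, mem_outN] at hz
    rw [mem_D]
    intro hs
    obtain ⟨hz1, hz2⟩ := hz
    by_cases hzx : z = x'
    · subst hzx
      obtain ⟨t, h1, h2⟩ := hs
      exact hx' (MulAction.injective t (h2.trans h1.symm))
    · apply hz2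
      refine ⟨Ne.symm hzx, fun h3 => hz1.2 (Same.trans h3 (Same.symm hs))⟩)
  -- I3
  have hI3 : k ≤ e * e := by
    have hR''R' : ∀ x y, Same G c c' x y → R' x y := by
      rintro x y ⟨t, rfl, rfl⟩
      exact hR'inv t _ _ hcc'
    have hirr'' : ∀ x, ¬ Same G c c' x x := by
      intro x hx
      exact (hR''R' x x hx).1 rfl
    have hex'' : ∀ x, ∃ y, Same G c c' x y := by
      intro x
      obtain ⟨t, ht⟩ := exists_smul_eq G c x
      exact ⟨t • c', t, ht, rfl⟩
    obtain ⟨v₀, hv₀⟩ := hex u
    have hnotcl : ¬ ∀ x y, x ∈ {w | w = u ∨ R' u w} → Same G c c' x y → y ∈ {w | w = u ∨ R' u w} := by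
      intro hcl
      have := out_closed_univ hprim (Same G c c') (fun h x y hxy => Same.of_smul hxy) hirr'' hex''
        {w | w = u ∨ R' u w} hcl ⟨u, Or.inl rfl⟩
      have hv : v₀ ∈ {w | w = u ∨ R' u w} := by rw [this]; trivial
      rcases hv with hv | hv
      · rw [hv] at hv₀
        exact hirr _ hv₀
      · exact hv.2 hv₀
    push Not at hnotcl
    obtain ⟨w, v, hw, hwv, hv⟩ := hnotcl
    have hv' : v ≠ u ∧ ¬ R' u v := by
      rw [Set.mem_ofPred_eq, not_or] at hv
      exact hv
    have huv : R u v := by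
      by_contra hn
      exact hv'.2 ⟨hv'.1.symm, hn⟩
    have hw' : R' u w := by
      rcases hw with rfl | hw
      · exact (hv'.2 (hR''R' _ _ hwv)).elim
      · exact hw
    have hsub : outN R u ⊆ (outN R' u).biUnion (outN R') := by
      intro v' hv'm
      rw [mem_outN] at hv'm
      obtain ⟨t, h1, h2⟩ := Same.trans (Same.symm huv) hv'm
      rw [Finset.mem_biUnion]
      refine ⟨t • w, ?_, ?_⟩
      · rw [mem_outN]
        have := hR'inv t _ _ hw'
        rwa [h1] at this
      · rw [mem_outN]
        have := hR'inv t _ _ (hR''R' _ _ hwv)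
        rwa [h2] at this
    refine (Finset.card_le_card hsub).trans (Finset.card_biUnion_le.trans ?_)
    rw [Finset.sum_congr rfl (fun x _ => hdeg' x)]
    simp [hedef]
  exact arith_large _ k e d hn hk hd1 hI1 hI2 hI3

/-- The non-2-transitive case. -/
theorem case_not_two [DecidableEq Ω] (hprim : IsPreprimitive G Ω) {a b : Ω} (hab : a ≠ b)
    (hnot2 : ¬ ∀ x y x' y' : Ω, x ≠ y → x' ≠ y' → Same G x y x' y') :
    Fintype.card Ω ≤ (2 * (D G a b).card + 1) ^ 2 := by
  by_cases hk : 4 * (D G a b).card < (outN (Same G a b) a).card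
  · exact case_large hprim hab hnot2 a hk
  · have h1 := degree_mul_ge hprim hab a
    have h2 : (outN (Same G a b) a).card ≤ 4 * (D G a b).card := by omega
    have h3 := Nat.mul_le_mul_right (D G a b).card h2
    have h4 : Fintype.card Ω - 1 ≤ 4 * (D G a b).card * (D G a b).card := h1.trans h3
    have h5 : Fintype.card Ω ≤ 4 * (D G a b).card * (D G a b).card + 1 := by omega
    nlinarith

/-- Neumann's lemma in a point stabiliser. -/
theorem neumann [Finite G] [DecidableEq Ω] (a : Ω) (A : Finset Ω)
    (h2 : ∀ x y, x ≠ a → y ≠ a → ∃ t : G, t • a = a ∧ t • x = y)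
    (ha : a ∉ A) (hcard : A.card * A.card < Fintype.card Ω - 1) :
    ∃ t : G, t • a = a ∧ ∀ x ∈ A, t • x ∉ A := by
  classical
  have := Fintype.ofFinite G
  by_contra hcon
  push Not at hcon
  obtain ⟨x₁, hx₁⟩ : ∃ x₁ : Ω, x₁ ≠ a := by
    have h1 : 1 < Fintype.card Ω := by omega
    have h3 : Nontrivial Ω := Fintype.one_lt_card_iff_nontrivial.1 h1
    exact exists_ne a
  let F : Ω → Ω → Finset G := fun x y => Finset.univ.filter (fun t => t • a = a ∧ t • x = y)
  let T : Finset G := Finset.univ.filter (fun t => t • a = a)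
  let N := (F x₁ x₁).card
  have hF : ∀ x y, x ≠ a → y ≠ a → (F x y).card = N := by
    intro x y hx hy
    obtain ⟨p, hp1, hp2⟩ := h2 x₁ x hx₁ hx
    obtain ⟨q, hq1, hq2⟩ := h2 x₁ y hx₁ hy
    refine Finset.card_bij (fun t _ => q⁻¹ * t * p) ?_ ?_ ?_
    · intro t ht
      simp only [F, Finset.mem_filter, Finset.mem_univ, true_and] at ht ⊢
      simp only [mul_smul, hp1, hp2, ht.1, ht.2]
      constructor
      · rw [inv_smul_eq_iff, hq1]
      · rw [inv_smul_eq_iff, hq2]
    · intro t₁ _ t₂ _ h
      have := mul_right_cancel h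
      exact mul_left_cancel this
    · intro t ht
      simp only [F, Finset.mem_filter, Finset.mem_univ, true_and] at ht
      refine ⟨q * t * p⁻¹, ?_, by group⟩
      simp only [F, Finset.mem_filter, Finset.mem_univ, true_and]
      have hp1' : p⁻¹ • a = a := by rw [inv_smul_eq_iff, hp1]
      have hp2' : p⁻¹ • x = x₁ := by rw [inv_smul_eq_iff, hp2]
      simp only [mul_smul, hp1', hp2', ht.1, ht.2, hq1, hq2, and_self]
  have hN : 1 ≤ N := Finset.card_pos.2 ⟨1, by simp [F]⟩
  have hT : T.card = (Fintype.card Ω - 1) * N := by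
    have h3 := Finset.card_eq_sum_card_fiberwise (s := T) (t := Finset.univ.erase a)
      (f := fun t : G => t • x₁) (by
        intro t ht
        simp only [T, Finset.coe_filter, Finset.mem_univ, true_and, Set.mem_ofPred_eq] at ht
        simp only [Finset.coe_erase, Finset.coe_univ, Set.mem_sdiff, Set.mem_univ, true_and,
          Set.mem_singleton_iff]
        intro h4
        apply hx₁
        apply MulAction.injective t
        show t • x₁ = t • a
        rw [h4, ht])
    rw [h3]
    have h4 : ∀ y ∈ Finset.univ.erase a, (T.filter (fun t => t • x₁ = y)).card = N := by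
      intro y hy
      rw [← hF x₁ y hx₁ (Finset.mem_erase.1 hy).1]
      congr 1
      ext t
      simp [T, F]
    rw [Finset.sum_congr rfl h4, Finset.sum_const, smul_eq_mul, Finset.card_erase_of_mem
      (Finset.mem_univ _), Finset.card_univ]
  have hsub : T ⊆ A.biUnion (fun x => A.biUnion (fun y => F x y)) := by
    intro t ht
    simp only [T, Finset.mem_filter, Finset.mem_univ, true_and] at ht
    obtain ⟨x, hx, hxt⟩ := hcon t ht
    rw [Finset.mem_biUnion]
    refine ⟨x, hx, ?_⟩
    rw [Finset.mem_biUnion]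
    refine ⟨t • x, hxt, ?_⟩
    simp [F, ht]
  have hle : T.card ≤ A.card * (A.card * N) := by
    refine (Finset.card_le_card hsub).trans (Finset.card_biUnion_le.trans ?_)
    have h5 : ∀ x ∈ A, (A.biUnion (fun y => F x y)).card ≤ A.card * N := by
      intro x hx
      refine Finset.card_biUnion_le.trans ?_
      have h6 : ∀ y ∈ A, (F x y).card = N := fun y hy =>
        hF x y (fun h => ha (h ▸ hx)) (fun h => ha (h ▸ hy))
      rw [Finset.sum_congr rfl h6]
      simp
    refine (Finset.sum_le_sum h5).trans ?_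
    simp
  rw [hT] at hle
  have h7 : (Fintype.card Ω - 1) * N ≤ (A.card * A.card) * N := by
    rw [mul_assoc]
    exact hle
  have h8 := Nat.le_of_mul_le_mul_right h7 hN
  omega

/-- Permutations whose supports meet in one point have a commutator which is a three-cycle. -/
theorem commutator_isThreeCycle [DecidableEq Ω] (p q : Perm Ω) (a : Ω) (hp : p a ≠ a) (hq : q a ≠ a)
    (hdis : ∀ x, p x ≠ x → q x ≠ x → x = a) : (p * q * p⁻¹ * q⁻¹).IsThreeCycle := by
  have hpa : p (p a) ≠ p a := fun h => hp (p.injective h)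
  have hqa : q (q a) ≠ q a := fun h => hq (q.injective h)
  have hb : q (p a) = p a := by
    by_contra h
    exact hp (hdis _ hpa h)
  have hc : p (q a) = q a := by
    by_contra h
    exact hq (hdis _ h hqa)
  have hbc : p a ≠ q a := by
    intro h
    rw [← h] at hc
    exact hpa hc
  have hpfix : ∀ y, y ≠ a → p y ≠ y → q y = y := by
    intro y hy h
    by_contra hn
    exact hy (hdis y h hn)
  have hqfix : ∀ y, y ≠ a → q y ≠ y → p y = y := by
    intro y hy h
    by_contra hn
    exact hy (hdis y hn h)
  have h3 := Perm.isThreeCycle_swap_mul_swap_same (a := a) (b := q a) (c := p a) hq.symm hp.symm hbc.symm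
  convert h3 using 1
  ext x
  simp only [Perm.mul_apply]
  by_cases hxa : x = a
  · subst hxa
    rw [swap_apply_left, swap_apply_of_ne_of_ne hp hbc]
    have h1 : q (q⁻¹ x) = x := by simp
    have h2 : q⁻¹ x ≠ x := by
      intro h
      rw [h] at h1
      exact hq h1
    have h4 : p (q⁻¹ x) = q⁻¹ x := hqfix _ h2 (by rw [h1]; exact h2.symm)
    have h5 : p⁻¹ (q⁻¹ x) = q⁻¹ x := by
      rw [Perm.inv_eq_iff_eq]
      exact h4.symm
    rw [h5, h1]
  by_cases hxb : x = p a
  · subst hxb
    rw [swap_apply_right, swap_apply_left]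
    have h1 : q⁻¹ (p a) = p a := by
      rw [Perm.inv_eq_iff_eq]
      exact hb.symm
    have h2 : p⁻¹ (p a) = a := by simp
    rw [h1, h2, hc]
  by_cases hxc : x = q a
  · subst hxc
    have h0 : q⁻¹ (q a) = a := by simp
    rw [swap_apply_of_ne_of_ne hq hbc.symm, swap_apply_right, h0]
    have h1 : p (p⁻¹ a) = a := by simp
    have h2 : p⁻¹ a ≠ a := by
      intro h
      rw [h] at h1
      exact hp h1
    have h4 : q (p⁻¹ a) = p⁻¹ a := hpfix _ h2 (by rw [h1]; exact h2.symm)
    rw [h4, h1]
  · rw [swap_apply_of_ne_of_ne hxa hxb, swap_apply_of_ne_of_ne hxa hxc]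
    by_cases hqx : q x = x
    · have h1 : q⁻¹ x = x := by
        rw [Perm.inv_eq_iff_eq]
        exact hqx.symm
      rw [h1]
      have h2 : p (p⁻¹ x) = x := by simp
      have h3' : p⁻¹ x ≠ a := by
        intro h
        rw [h] at h2
        exact hxb h2.symm
      have h4 : q (p⁻¹ x) = p⁻¹ x := by
        by_cases hw : p (p⁻¹ x) = p⁻¹ x
        · rw [h2] at hw
          rw [← hw]
          exact hqx
        · exact hpfix _ h3' hw
      rw [h4, h2]
    · have h2 : q (q⁻¹ x) = x := by simp
      have h3' : q⁻¹ x ≠ a := by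
        intro h
        rw [h] at h2
        exact hxc h2.symm
      have h4 : p (q⁻¹ x) = q⁻¹ x := by
        apply hqfix _ h3'
        rw [h2]
        intro h
        have h6 := congrArg q h
        rw [h2] at h6
        exact hqx h6
      have h5 : p⁻¹ (q⁻¹ x) = q⁻¹ x := by
        rw [Perm.inv_eq_iff_eq]
        exact h4.symm
      rw [h5, h2]
      exact hqfix _ hxa hqx

/-- The 2-transitive case. -/
theorem case_two [Finite G] [DecidableEq Ω] (hprim : IsPreprimitive G Ω)
    (h2 : ∀ x y x' y' : Ω, x ≠ y → x' ≠ y' → Same G x y x' y')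
    (hA : ¬ alternatingGroup Ω ≤ (toPermHom G Ω).range) (g : G) (a : Ω) (ha : g • a ≠ a) :
    Fintype.card Ω - 1 ≤
      ((Finset.univ.filter (fun x : Ω => g • x ≠ x)).erase a).card *
        ((Finset.univ.filter (fun x : Ω => g • x ≠ x)).erase a).card := by
  by_contra hcon
  rw [not_le] at hcon
  obtain ⟨t, ht, htA⟩ := neumann (G := G) a ((Finset.univ.filter (fun x : Ω => g • x ≠ x)).erase a)
    (fun x y hx hy => by
      obtain ⟨t, h1, h2'⟩ := h2 a x a y hx.symm hy.symm
      exact ⟨t, h1, h2'⟩)
    (Finset.notMem_erase _ _) hcon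
  let P : Perm Ω := toPermHom G Ω g
  let Q : Perm Ω := toPermHom G Ω (t * g * t⁻¹)
  have hP : ∀ x, P x = g • x := fun x => rfl
  have hQ : ∀ x, Q x = t • g • t⁻¹ • x := fun x => by
    show (t * g * t⁻¹) • x = _
    simp [mul_smul]
  have ht' : t⁻¹ • a = a := by rw [inv_smul_eq_iff, ht]
  have h3 : (P * Q * P⁻¹ * Q⁻¹).IsThreeCycle := by
    apply commutator_isThreeCycle P Q a (by rw [hP]; exact ha)
    · rw [hQ, ht']
      intro h
      apply ha
      rw [smul_eq_iff_eq_inv_smul, ht'] at h
      exact h
    · intro x h4 h5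
      rw [hP] at h4
      rw [hQ] at h5
      by_contra hxa
      have h6 : x ∈ (Finset.univ.filter (fun x : Ω => g • x ≠ x)).erase a := by
        simp only [Finset.mem_erase, Finset.mem_filter, Finset.mem_univ, true_and]
        exact ⟨hxa, h4⟩
      have h7 : t⁻¹ • x ∈ (Finset.univ.filter (fun x : Ω => g • x ≠ x)).erase a := by
        simp only [Finset.mem_erase, Finset.mem_filter, Finset.mem_univ, true_and]
        constructor
        · intro h8
          apply hxa
          rw [inv_smul_eq_iff, ht] at h8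
          exact h8
        · intro h8
          apply h5
          rw [h8, smul_inv_smul]
      have h8 := htA _ h7
      rw [smul_inv_smul] at h8
      exact h8 h6
  have hmem : P * Q * P⁻¹ * Q⁻¹ ∈ (toPermHom G Ω).range := by
    refine Subgroup.mul_mem _ (Subgroup.mul_mem _ (Subgroup.mul_mem _ ⟨_, rfl⟩ ⟨_, rfl⟩)
      (Subgroup.inv_mem _ ⟨_, rfl⟩)) (Subgroup.inv_mem _ ⟨_, rfl⟩)
  have hprimR : IsPreprimitive (toPermHom G Ω).range Ω := by
    let f : Ω →ₑ[(toPermHom G Ω).rangeRestrict] Ω :=
      { toFun := id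
        map_smul' := fun _ _ => rfl }
    exact IsPreprimitive.of_surjective (f := f) Function.surjective_id
  exact hA (Perm.alternatingGroup_le_of_isPreprimitive_of_isThreeCycle_mem hprimR h3 hmem)

/-- The bound. -/
theorem main_bound [Finite G] [FaithfulSMul G Ω] [DecidableEq Ω] (hprim : IsPreprimitive G Ω)
    (hA : ¬ alternatingGroup Ω ≤ (toPermHom G Ω).range) (g : G) (hg : g ≠ 1) :
    Fintype.card Ω ≤ (2 * (Finset.univ.filter (fun x : Ω => g • x ≠ x)).card + 1) ^ 2 := by
  obtain ⟨a, ha⟩ : ∃ a : Ω, g • a ≠ a := by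
    by_contra hcon
    push Not at hcon
    exact hg (FaithfulSMul.eq_of_smul_eq_smul (fun x => by rw [hcon, one_smul]))
  set s := (Finset.univ.filter (fun x : Ω => g • x ≠ x)).card with hs
  by_cases h2 : ∀ x y x' y' : Ω, x ≠ y → x' ≠ y' → Same G x y x' y'
  · have h := case_two hprim h2 hA g a ha
    have hmem : a ∈ Finset.univ.filter (fun x : Ω => g • x ≠ x) := by simpa using ha
    rw [Finset.card_erase_of_mem hmem, ← hs] at h
    have hs1 : 1 ≤ s := Finset.card_pos.2 ⟨a, hmem⟩
    obtain ⟨c, hc⟩ : ∃ c, s = c + 1 := ⟨s - 1, by omega⟩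
    rw [hc] at h ⊢
    simp only [Nat.add_sub_cancel] at h
    have h5 : Fintype.card Ω ≤ c * c + 1 := by omega
    nlinarith
  · have h := case_not_two (G := G) hprim ha.symm h2
    have hsub : D G a (g • a) ⊆ Finset.univ.filter (fun x : Ω => g • x ≠ x) := by
      intro z hz
      rw [mem_D] at hz
      simp only [Finset.mem_filter, Finset.mem_univ, true_and]
      intro hgz
      exact hz ⟨g, rfl, hgz⟩
    have h3 := Finset.card_le_card hsub
    refine h.trans (Nat.pow_le_pow_left ?_ 2)
    omega

end main

end Cfsg.Agent.Lib.Perm.Babai
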