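import Cfsg.Agent.Lib.Perm.Basic

/-!
# Jordan sets in quasiprimitive groups
-/

set_option autoImplicit false

open MulAction
open scoped Pointwise

namespace Cfsg.Agent.Lib.Perm.JordanSet

variable {G Ω : Type*} [Group G] [MulAction G Ω]

/-- A quasiprimitive group with a primitive Jordan set `Γ` is primitive. -/
theorem isPreprimitive_of_quasi
    (hqp : ∀ N : Subgroup G, N.Normal → N ≠ ⊥ → IsPretransitive ↥N Ω)
    (Γ : Set Ω) {x y : Ω} (hx : x ∈ Γ) (hy : y ∈ Γ) (hxy : x ≠ y)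
    (hJ : IsPretransitive ↥(fixingSubgroup G Γᶜ) ↥(SubMulAction.ofFixingSubgroup G Γᶜ))
    (hJp : IsPreprimitive ↥(fixingSubgroup G Γᶜ) ↥(SubMulAction.ofFixingSubgroup G Γᶜ)) :
    IsPreprimitive G Ω := by
  classical
  have hmemΓ : ∀ c : Ω, c ∈ Γ → c ∈ SubMulAction.ofFixingSubgroup G Γᶜ := by
    intro c hc
    rw [SubMulAction.mem_ofFixingSubgroup_iff]
    simpa using hc
  obtain ⟨h, hh⟩ := hJ.exists_smul_eq ⟨x, hmemΓ x hx⟩ ⟨y, hmemΓ y hy⟩
  have hhxy : (h : G) • x = y := congrArg Subtype.val hh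
  have hh1 : (h : G) ≠ 1 := by
    intro h1
    rw [h1, one_smul] at hhxy
    exact hxy hhxy
  have hfix : ∀ c, c ∉ Γ → (h : G) • c = c := fun c hc => h.2 ⟨c, hc⟩
  have hne : ∀ N : Subgroup G, (h : G) ∈ N → N ≠ ⊥ := by
    intro N hN hbot
    rw [hbot, Subgroup.mem_bot] at hN
    exact hh1 hN
  have htop := hqp ⊤ inferInstance (hne ⊤ (Subgroup.mem_top _))
  have htr : IsPretransitive G Ω := ⟨fun a b => by
    obtain ⟨g, hg⟩ := htop.exists_smul_eq a b
    exact ⟨g, hg⟩⟩
  refine IsPreprimitive.of_isTrivialBlock_base x fun {B} hxB hB => ?_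
  have hB' := hB.preimage (SubMulAction.ofFixingSubgroup_equivariantMap G Γᶜ)
  rcases hJp.isTrivialBlock_of_isBlock hB' with hsub | htop'
  · -- `B ∩ Γ` is a single point
    left
    have hpt : ∀ c ∈ B, c = x := by
      intro c hc
      by_contra hcx
      by_cases hcΓ : c ∈ Γ
      · exact hcx (congrArg Subtype.val (@hsub ⟨c, hmemΓ c hcΓ⟩ hc ⟨x, hmemΓ x hx⟩ hxB))
      · have h1 : (h : G) • B = B := hB.smul_eq_of_mem hc (by rw [hfix c hcΓ]; exact hc)
        have hyB : y ∈ B := by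
          rw [← h1, ← hhxy]
          exact Set.smul_mem_smul_set hxB
        exact hxy (congrArg Subtype.val (@hsub ⟨x, hmemΓ x hx⟩ hxB ⟨y, hmemΓ y hy⟩ hyB))
    intro a ha b hb
    rw [hpt a ha, hpt b hb]
  · right
    have hΓB : ∀ c ∈ Γ, c ∈ B := by
      intro c hc
      have : (⟨c, hmemΓ c hc⟩ : SubMulAction.ofFixingSubgroup G Γᶜ) ∈
          (SubMulAction.ofFixingSubgroup_equivariantMap G Γᶜ) ⁻¹' B := by
        rw [htop']; trivial
      exact this
    -- the kernel on the block system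
    let K : Subgroup G :=
      { carrier := {k | ∀ g : G, k • (g • B) = g • B}
        mul_mem' := by
          intro a b ha hb g
          rw [mul_smul, hb g, ha g]
        one_mem' := by
          intro g
          rw [one_smul]
        inv_mem' := by
          intro a ha g
          rw [inv_smul_eq_iff, ha g] }
    have hKn : K.Normal := ⟨by
      intro n hn c g
      have h2 := hn (c⁻¹ * g)
      calc (c * n * c⁻¹) • g • B = c • n • ((c⁻¹ * g) • B) := by simp [mul_smul]
        _ = c • ((c⁻¹ * g) • B) := by rw [h2]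
        _ = g • B := by simp [mul_smul]⟩
    have hhK : (h : G) ∈ K := by
      intro g
      by_cases hgx : g • x ∈ Γ
      · have h1 : g • B = B := hB.smul_eq_of_mem hxB (hΓB _ hgx)
        rw [h1]
        exact hB.smul_eq_of_mem hxB (by rw [hhxy]; exact hΓB y hy)
      · have h1 := hfix _ hgx
        have h2 : (g⁻¹ * (h : G) * g) • B = B := hB.smul_eq_of_mem hxB (by
          simp only [mul_smul]
          rw [h1, inv_smul_smul]
          exact hxB)
        rw [mul_smul, mul_smul, inv_smul_eq_iff] at h2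
        exact h2
    have hKt := hqp K hKn (hne K hhK)
    refine Set.eq_univ_of_forall fun d => ?_
    obtain ⟨k, hk⟩ := hKt.exists_smul_eq x d
    have h1 := k.2 1
    rw [one_smul] at h1
    rw [← h1, ← hk]
    exact Set.smul_mem_smul_set hxB

/-- S3619: a quasiprimitive group with a primitive Jordan set. -/
theorem multiply_of_quasi [Finite Ω]
    (hqp : ∀ N : Subgroup G, N.Normal → N ≠ ⊥ → IsPretransitive ↥N Ω)
    (Γ : Set Ω) (hΓ1 : 1 < Γ.ncard) (hΓ2 : Γ.ncard < Nat.card Ω)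
    (hJ : IsPretransitive ↥(fixingSubgroup G Γᶜ) ↥(SubMulAction.ofFixingSubgroup G Γᶜ))
    (hJp : IsPreprimitive ↥(fixingSubgroup G Γᶜ) ↥(SubMulAction.ofFixingSubgroup G Γᶜ)) :
    IsMultiplyPretransitive G Ω (Nat.card Ω - Γ.ncard + 1) := by
  obtain ⟨x, hx, y, hy, hxy⟩ := (Set.one_lt_ncard Γ.toFinite).1 hΓ1
  have hprim := isPreprimitive_of_quasi hqp Γ hx hy hxy hJ hJp
  have hc := Set.ncard_add_ncard_compl Γ
  obtain ⟨n, hn⟩ : ∃ n, Nat.card Ω - Γ.ncard = n + 1 := ⟨Nat.card Ω - Γ.ncard - 1, by omega⟩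
  rw [hn]
  have := hprim.isMultiplyPreprimitive (s := Γᶜ) (n := n) (by omega) (by omega) hJp
  exact this.isMultiplyPretransitive

end Cfsg.Agent.Lib.Perm.JordanSet
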