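import Cfsg.Agent.Lib.Perm.Basic

/-!
# Minimal degree of multiply transitive groups

A `k`-transitive group with a non-identity element of support `< 2k - 2` contains an element of
support at most `3`, and so contains the alternating group.
-/

set_option autoImplicit false

open MulAction Equiv

namespace Cfsg.Agent.Lib.Perm.MinDegree

variable {α : Type*} [Fintype α] [DecidableEq α]

omit [Fintype α] [DecidableEq α] in
private theorem ais (f : Perm α) (x : α) : f (f⁻¹ x) = x := by simp

omit [Fintype α] [DecidableEq α] in
private theorem ias (f : Perm α) (x : α) : f⁻¹ (f x) = x := by simp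

/-- A finite set with at most one point leaving under `g`. -/
theorem chain (g : Perm α) (s : ℕ) (hs : s ≤ g.support.card) :
    ∃ P : Finset α, P ⊆ g.support ∧ P.card = s ∧ (P.filter (fun p => g p ∉ P)).card ≤ 1 := by
  induction s with
  | zero => exact ⟨∅, by simp, rfl, by simp⟩
  | succ s ih =>
    obtain ⟨P, hP, hPc, hb⟩ := ih (by omega)
    rcases Nat.le_one_iff_eq_zero_or_eq_one.1 hb with h0 | h1
    · -- invariant: add any further point
      have hlt : P.card < g.support.card := by omega
      obtain ⟨c, hc, hcP⟩ := Finset.exists_mem_notMem_of_card_lt_card hlt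
      refine ⟨insert c P, Finset.insert_subset hc hP, by rw [Finset.card_insert_of_notMem hcP, hPc], ?_⟩
      have hsub : (insert c P).filter (fun p => g p ∉ insert c P) ⊆ {c} := by
        intro x hx
        simp only [Finset.mem_filter, Finset.mem_insert, not_or] at hx
        rcases hx.1 with rfl | hxP
        · simp
        · exfalso
          have : x ∈ P.filter (fun p => g p ∉ P) := Finset.mem_filter.2 ⟨hxP, hx.2.2⟩
          rw [Finset.card_eq_zero.1 h0] at this
          simp at this
      exact (Finset.card_le_card hsub).trans (by simp)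
    · obtain ⟨a, ha⟩ := Finset.card_eq_one.1 h1
      have ha' : a ∈ P.filter (fun p => g p ∉ P) := by rw [ha]; simp
      rw [Finset.mem_filter] at ha'
      have hga : g a ∈ g.support := by
        rw [Perm.apply_mem_support]
        exact hP ha'.1
      refine ⟨insert (g a) P, Finset.insert_subset hga hP,
        by rw [Finset.card_insert_of_notMem ha'.2, hPc], ?_⟩
      have hsub : (insert (g a) P).filter (fun p => g p ∉ insert (g a) P) ⊆ {g a} := by
        intro x hx
        simp only [Finset.mem_filter, Finset.mem_insert, not_or] at hx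
        rcases hx.1 with rfl | hxP
        · simp
        · exfalso
          have : x ∈ P.filter (fun p => g p ∉ P) := Finset.mem_filter.2 ⟨hxP, hx.2.2⟩
          rw [ha, Finset.mem_singleton] at this
          rw [this] at hx
          exact hx.2.1 rfl
      exact (Finset.card_le_card hsub).trans (by simp)

/-- A set with a leaving point: the counting bound. -/
theorem exists_smaller (G : Subgroup (Perm α)) {k : ℕ} (hG : IsMultiplyPretransitive G α k)
    (hkn : k ≤ Fintype.card α)
    {g : Perm α} (hg : g ∈ G) {P : Finset α} (hP : P ⊆ g.support) (hPc : P.card + 1 = k)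
    {a : α} (ha : a ∈ P) (hga : g a ∉ P) {t' : α} (ht'Δ : t' ∈ g.support) (ht'P : t' ∉ P)
    (ht' : t' ≠ g a) :
    ∃ y ∈ G, y ≠ 1 ∧ y.support.card + (P.card - (P.filter (fun p => g p ∉ P)).card) + k ≤
      2 * g.support.card := by
  classical
  set t := g a with ht
  -- the element `h`
  have hinj : Set.InjOn (fun x => if x = t then t' else x) (insert t P : Finset α) := by
    intro x hx z hz hxz
    simp only at hxz
    simp only [Finset.coe_insert, Set.mem_insert_iff, Finset.mem_coe] at hx hz
    by_cases hxt : x = t
    · by_cases hzt : z = t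
      · rw [hxt, hzt]
      · rw [if_pos hxt, if_neg hzt] at hxz
        exact (ht'P (by rw [hxz]; exact hz.resolve_left hzt)).elim
    · by_cases hzt : z = t
      · rw [if_neg hxt, if_pos hzt] at hxz
        exact (ht'P (hxz ▸ hx.resolve_left hxt)).elim
      · rw [if_neg hxt, if_neg hzt] at hxz
        exact hxz
  obtain ⟨h₀, hh₀⟩ := Cfsg.Agent.Lib.Perm.Basic.exists_agree hG
    (by rw [ENat.card_eq_coe_fintype_card]; exact_mod_cast hkn) (insert t P)
    (by rw [Finset.card_insert_of_notMem hga]; omega) _ hinj
  let h : Perm α := h₀
  have hfix : ∀ p ∈ P, h p = p := by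
    intro p hp
    have hne : p ≠ t := fun h' => hga (h' ▸ hp)
    have := hh₀ p (Finset.mem_insert_of_mem hp)
    rw [if_neg hne] at this
    exact this
  have hht : h t = t' := by
    have := hh₀ t (Finset.mem_insert_self _ _)
    rw [if_pos rfl] at this
    exact this
  have hinv : ∀ p ∈ P, h⁻¹ p = p := by
    intro p hp
    rw [Perm.inv_eq_iff_eq]
    exact (hfix p hp).symm
  let y : Perm α := g⁻¹ * (h * g * h⁻¹)
  have hyG : y ∈ G := G.mul_mem (G.inv_mem hg) (G.mul_mem (G.mul_mem h₀.2 hg) (G.inv_mem h₀.2))
  have hy1 : y ≠ 1 := by
    intro hy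
    have h1 : y a = a := by rw [hy]; rfl
    have h2 : y a = g⁻¹ t' := by
      simp only [y, Perm.mul_apply]
      rw [hinv a ha, ← ht, hht]
    rw [h2, Perm.inv_eq_iff_eq] at h1
    exact ht' h1
  refine ⟨y, hyG, hy1, ?_⟩
  -- the support
  let Δ := g.support
  let hΔ : Finset α := Δ.image h
  let F : Finset α := P.filter (fun p => g p ∈ P)
  have hsupp : y.support ⊆ (Δ ∪ hΔ) \ F := by
    intro x hx
    rw [Perm.mem_support] at hx
    rw [Finset.mem_sdiff, Finset.mem_union]
    constructor
    · by_contra hcon
      rw [not_or] at hcon
      apply hx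
      have h1 : g x = x := by simpa [Δ, Perm.mem_support] using hcon.1
      have h2 : h⁻¹ x ∉ Δ := by
        intro hmem
        apply hcon.2
        refine Finset.mem_image.2 ⟨h⁻¹ x, hmem, by simp⟩
      have h3 : g (h⁻¹ x) = h⁻¹ x := by simpa [Δ, Perm.mem_support] using h2
      simp only [y, Perm.mul_apply]
      rw [h3, ais, Perm.inv_eq_iff_eq]
      exact h1.symm
    · intro hF
      rw [Finset.mem_filter] at hF
      apply hx
      simp only [y, Perm.mul_apply]
      rw [hinv x hF.1, hfix _ hF.2, ias]
  have hFsub : F ⊆ Δ ∪ hΔ := fun x hx =>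
    Finset.mem_union_left _ (hP (Finset.mem_filter.1 hx).1)
  have hinter : insert t' P ⊆ Δ ∩ hΔ := by
    intro x hx
    rw [Finset.mem_insert] at hx
    rcases hx with rfl | hx
    · refine Finset.mem_inter.2 ⟨ht'Δ, Finset.mem_image.2 ⟨t, ?_, hht⟩⟩
      change g a ∈ g.support
      rw [Perm.apply_mem_support]
      exact hP ha
    · exact Finset.mem_inter.2 ⟨hP hx, Finset.mem_image.2 ⟨x, hP hx, hfix x hx⟩⟩
  have hcard1 : (insert t' P).card = k := by
    rw [Finset.card_insert_of_notMem ht'P]; omega
  have hcard2 := Finset.card_le_card hinter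
  have hcard3 := Finset.card_union_add_card_inter Δ hΔ
  have hcard4 : hΔ.card = Δ.card := Finset.card_image_of_injective _ h.injective
  have hcard5 := Finset.card_sdiff_add_card_eq_card hFsub
  have hcard6 := Finset.card_le_card hsupp
  have hcard7 : F.card + (P.filter (fun p => g p ∉ P)).card = P.card :=
    Finset.card_filter_add_card_filter_not _
  have hΔc : Δ.card = g.support.card := rfl
  omega

/-- Strong induction producing an element of support at most 3. -/
theorem exists_small_support (G : Subgroup (Perm α)) {k : ℕ} (hk : 3 ≤ k)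
    (hkn : k + 1 < Fintype.card α) (hG : IsMultiplyPretransitive G α k) :
    ∀ (m : ℕ) (g : Perm α), g ∈ G → g ≠ 1 → g.support.card = m → m < 2 * k - 2 →
      ∃ h ∈ G, h ≠ 1 ∧ h.support.card ≤ 3 := by
  classical
  intro m
  induction m using Nat.strong_induction_on with
  | _ m ih =>
  intro g hg hg1 hgm hm2
  by_cases hm3 : m ≤ 3
  · exact ⟨g, hg, hg1, hgm ▸ hm3⟩
  push Not at hm3
  by_cases hmk : m ≤ k
  · -- small support
    have hc : 0 < g.support.card := by omega
    obtain ⟨t, ht⟩ := Finset.card_pos.1 hc
    obtain ⟨t', ht'⟩ : ∃ t', t' ∉ g.support := by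
      by_contra hcon
      push Not at hcon
      have : g.support = Finset.univ := Finset.eq_univ_of_forall hcon
      rw [this, Finset.card_univ] at hgm
      omega
    let P := g.support.erase t
    have hPc : P.card + 1 = m := by
      rw [Finset.card_erase_of_mem ht, hgm]
      omega
    have hinj : Set.InjOn (fun x => if x = t then t' else x) (g.support : Finset α) := by
      intro x hx z hz hxz
      simp only at hxz
      by_cases hxt : x = t
      · by_cases hzt : z = t
        · rw [hxt, hzt]
        · rw [if_pos hxt, if_neg hzt] at hxz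
          exact (ht' (hxz ▸ hz)).elim
      · by_cases hzt : z = t
        · rw [if_neg hxt, if_pos hzt] at hxz
          exact (ht' (hxz ▸ hx)).elim
        · rw [if_neg hxt, if_neg hzt] at hxz
          exact hxz
    obtain ⟨h₀, hh₀⟩ := Cfsg.Agent.Lib.Perm.Basic.exists_agree hG
      (by rw [ENat.card_eq_coe_fintype_card]; exact_mod_cast hkn.le.trans' (Nat.le_succ k)) g.support
      (by omega) _ hinj
    let h : Perm α := h₀
    have hht : h t = t' := by
      have := hh₀ t ht
      rw [if_pos rfl] at this
      exact this
    have hfix : ∀ p ∈ g.support, p ≠ t → h p = p := by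
      intro p hp hne
      have := hh₀ p hp
      rw [if_neg hne] at this
      exact this
    have hinv : ∀ p ∈ g.support, p ≠ t → h⁻¹ p = p := by
      intro p hp hne
      rw [Perm.inv_eq_iff_eq]
      exact (hfix p hp hne).symm
    let a := g⁻¹ t
    have hat : a ≠ t := by
      intro h'
      have h1 : g⁻¹ t = t := h'
      rw [Perm.inv_eq_iff_eq] at h1
      exact (Perm.mem_support.1 ht) h1.symm
    have haΔ : a ∈ g.support := by
      have : g a = t := by simp [a]
      rw [← Perm.apply_mem_support, this]
      exact ht
    let y : Perm α := g⁻¹ * (h * g * h⁻¹)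
    have hyG : y ∈ G := G.mul_mem (G.inv_mem hg) (G.mul_mem (G.mul_mem h₀.2 hg) (G.inv_mem h₀.2))
    have hgt' : g t' = t' := by simpa [Perm.mem_support] using ht'
    have hgi : g⁻¹ t' = t' := by
      rw [Perm.inv_eq_iff_eq]
      exact hgt'.symm
    have hy1 : y ≠ 1 := by
      intro hy
      have h1 : y a = a := by rw [hy]; rfl
      have h2 : y a = t' := by
        simp only [y, Perm.mul_apply]
        rw [hinv a haΔ hat]
        have : g a = t := by simp [a]
        rw [this, hht, hgi]
      rw [h2] at h1
      exact ht' (h1 ▸ haΔ)
    refine ⟨y, hyG, hy1, ?_⟩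
    have hsupp : y.support ⊆ {a, t, t'} := by
      intro x hx
      rw [Perm.mem_support] at hx
      by_contra hcon
      simp only [Finset.mem_insert, Finset.mem_singleton, not_or] at hcon
      obtain ⟨hxa, hxt, hxt'⟩ := hcon
      apply hx
      simp only [y, Perm.mul_apply]
      by_cases hxΔ : x ∈ g.support
      · rw [hinv x hxΔ hxt]
        have hgx : g x ≠ t := by
          intro h'
          apply hxa
          have : g x = g a := by rw [h']; simp [a]
          exact g.injective this
        rw [hfix _ ((Perm.apply_mem_support).2 hxΔ) hgx, ias]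
      · have hgx : g x = x := by simpa [Perm.mem_support] using hxΔ
        have hg'x : g⁻¹ x = x := by
          rw [Perm.inv_eq_iff_eq]
          exact hgx.symm
        -- `h⁻¹ x ∉ support`
        have hnot : h⁻¹ x ∉ g.support := by
          intro hmem
          by_cases hht' : h⁻¹ x = t
          · apply hxt'
            rw [← hht, ← hht']
            simp
          · have := hfix _ hmem hht'
            rw [ais] at this
            exact hxΔ (this ▸ hmem)
        have h3 : g (h⁻¹ x) = h⁻¹ x := by simpa [Perm.mem_support] using hnot
        rw [h3, ais, hg'x]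
    exact (Finset.card_le_card hsupp).trans (by
      exact Finset.card_le_three)
  · -- large support
    push Not at hmk
    obtain ⟨P₀, hP₀, hP₀c, hb₀⟩ := chain g (k - 1) (by omega)
    -- in all cases we look for a suitable `P`
    have hfind : ∃ P : Finset α, P ⊆ g.support ∧ P.card = k - 1 ∧
        (∃ a ∈ P, g a ∉ P) ∧ m + (P.filter (fun p => g p ∉ P)).card + 1 < 2 * k := by
      rcases Nat.le_one_iff_eq_zero_or_eq_one.1 hb₀ with h0 | h1
      · -- invariant set
        have hinvP : ∀ p ∈ P₀, g p ∈ P₀ := by
          intro p hp
          by_contra hcon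
          have : p ∈ P₀.filter (fun p => g p ∉ P₀) := Finset.mem_filter.2 ⟨hp, hcon⟩
          rw [Finset.card_eq_zero.1 h0] at this
          simp at this
        have himg : P₀.image g = P₀ := by
          apply Finset.eq_of_subset_of_card_le
          · intro x hx
            obtain ⟨p, hp, rfl⟩ := Finset.mem_image.1 hx
            exact hinvP p hp
          · rw [Finset.card_image_of_injective _ g.injective]
        have hout : ∀ c, c ∉ P₀ → g c ∉ P₀ := by
          intro c hc hgc
          rw [← himg] at hgc
          obtain ⟨p, hp, hpc⟩ := Finset.mem_image.1 hgc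
          rw [g.injective hpc] at hp
          exact hc hp
        by_cases hmeq : m = 2 * k - 3
        · -- the complement plus a point
          let Q := g.support \ P₀
          have hQc : Q.card + (k - 1) = m := by
            have : Q.card + P₀.card = g.support.card := Finset.card_sdiff_add_card_eq_card hP₀
            omega
          have hP₀ne : 0 < P₀.card := by omega
          obtain ⟨c, hc⟩ := Finset.card_pos.1 hP₀ne
          have hcQ : c ∉ Q := fun h' => (Finset.mem_sdiff.1 h').2 hc
          have hgc : g c ∈ P₀ := hinvP c hc
          have hgcc : g c ≠ c := Perm.mem_support.1 (hP₀ hc)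
          have hgcQ : g c ∉ insert c Q := by
            simp only [Finset.mem_insert, not_or]
            exact ⟨hgcc, fun h' => (Finset.mem_sdiff.1 h').2 hgc⟩
          refine ⟨insert c Q, Finset.insert_subset (hP₀ hc) Finset.sdiff_subset,
            by rw [Finset.card_insert_of_notMem hcQ]; omega, ⟨c, Finset.mem_insert_self _ _, hgcQ⟩, ?_⟩
          have hsub : (insert c Q).filter (fun p => g p ∉ insert c Q) ⊆ {c} := by
            intro x hx
            simp only [Finset.mem_filter, Finset.mem_insert, not_or] at hx
            rcases hx.1 with rfl | hxQ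
            · simp
            · exfalso
              have hxQ' := Finset.mem_sdiff.1 hxQ
              exact hx.2.2 (Finset.mem_sdiff.2 ⟨Perm.apply_mem_support.2 hxQ'.1, hout x hxQ'.2⟩)
          have := (Finset.card_le_card hsub).trans (show ({c} : Finset α).card ≤ 1 by simp)
          omega
        · -- exchange a point
          have hP₀ne : 0 < P₀.card := by omega
          obtain ⟨b₀, hb₀P⟩ := Finset.card_pos.1 hP₀ne
          have hlt : P₀.card < g.support.card := by omega
          obtain ⟨c, hc, hcP⟩ := Finset.exists_mem_notMem_of_card_lt_card hlt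
          let P' := insert c (P₀.erase b₀)
          have hP'c : P'.card = k - 1 := by
            rw [Finset.card_insert_of_notMem (by simp [hcP]), Finset.card_erase_of_mem hb₀P]
            omega
          have hgc1 : g c ∉ P₀ := hout c hcP
          have hgcc : g c ≠ c := Perm.mem_support.1 hc
          have hgcP' : g c ∉ P' := by
            simp only [P', Finset.mem_insert, Finset.mem_erase, not_or, not_and]
            exact ⟨hgcc, fun _ => hgc1⟩
          refine ⟨P', Finset.insert_subset hc ((Finset.erase_subset _ _).trans hP₀), hP'c,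
            ⟨c, Finset.mem_insert_self _ _, hgcP'⟩, ?_⟩
          have hsub : P'.filter (fun p => g p ∉ P') ⊆ {c, g⁻¹ b₀} := by
            intro x hx
            simp only [P', Finset.mem_filter, Finset.mem_insert, Finset.mem_erase, not_or, not_and] at hx
            simp only [Finset.mem_insert, Finset.mem_singleton]
            rcases hx.1 with rfl | ⟨_, hxP⟩
            · exact Or.inl rfl
            · right
              rw [Perm.eq_inv_iff_eq]
              by_contra hne
              exact hx.2.2 hne (hinvP x hxP)
          have := (Finset.card_le_card hsub).trans (Finset.card_le_two (a := c) (b := g⁻¹ b₀))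
          omega
      · -- one leaving point
        refine ⟨P₀, hP₀, hP₀c, ?_, by omega⟩
        obtain ⟨a, ha⟩ := Finset.card_eq_one.1 h1
        have ha' : a ∈ P₀.filter (fun p => g p ∉ P₀) := by rw [ha]; simp
        rw [Finset.mem_filter] at ha'
        exact ⟨a, ha'.1, ha'.2⟩
    obtain ⟨P, hP, hPc, ⟨a, ha, hga⟩, hb⟩ := hfind
    -- a second point
    have hcard : 1 < (g.support \ P).card := by
      have := Finset.card_sdiff_add_card_eq_card hP
      omega
    have hgaΔ : g a ∈ g.support \ P :=
      Finset.mem_sdiff.2 ⟨Perm.apply_mem_support.2 (hP ha), hga⟩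
    obtain ⟨t', ht', hne⟩ := Finset.exists_mem_ne hcard (g a)
    rw [Finset.mem_sdiff] at ht'
    obtain ⟨y, hyG, hy1, hy⟩ := exists_smaller G hG (by omega) hg hP (by omega) ha hga ht'.1 ht'.2 hne
    have hsmall : y.support.card < m := by
      have h1 : (P.filter (fun p => g p ∉ P)).card ≤ P.card := Finset.card_filter_le _ _
      omega
    exact ih _ hsmall y hyG hy1 rfl (by omega)

/-- S0711. -/
theorem small_support_alternating (G : Subgroup (Perm α)) {k : ℕ} (hk : 3 ≤ k)
    (hkn : k ≤ Fintype.card α) (hG : IsMultiplyPretransitive G α k) (g : Perm α) (hg : g ∈ G)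
    (hg1 : g ≠ 1) (hsupp : g.support.card < 2 * k - 2) :
    (∃ h : Perm α, h ∈ G ∧ h ≠ 1 ∧ h.support.card ≤ 3) ∧ alternatingGroup α ≤ G := by
  classical
  have hcardk : (k : ENat) ≤ ENat.card α := by
    rw [ENat.card_eq_coe_fintype_card]; exact_mod_cast hkn
  by_cases hkn' : k + 1 < Fintype.card α
  · obtain ⟨h, hh, hh1, hh3⟩ := exists_small_support G hk hkn' hG _ g hg hg1 rfl hsupp
    refine ⟨⟨h, hh, hh1, hh3⟩, ?_⟩
    have h2 : IsMultiplyPretransitive G α 2 := isMultiplyPretransitive_of_le' (by omega) hcardk
    have hprim : IsPreprimitive G α := isPreprimitive_of_is_two_pretransitive h2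
    have hge := Perm.two_le_card_support_of_ne_one hh1
    rcases (show h.support.card = 2 ∨ h.support.card = 3 by omega) with h2' | h3'
    · have hswap := Perm.card_support_eq_two.1 h2'
      rw [Perm.subgroup_eq_top_of_isPreprimitive_of_isSwap_mem hprim h hswap hh]
      exact le_top
    · have h3c := card_support_eq_three_iff.1 h3'
      exact Perm.alternatingGroup_le_of_isPreprimitive_of_isThreeCycle_mem hprim h3c hh
  · -- `G` is everything
    have hge : Fintype.card α - 1 ≤ k := by omega
    have hm : IsMultiplyPretransitive G α (Fintype.card α - 1) :=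
      isMultiplyPretransitive_of_le' hge hcardk
    have htop : G = ⊤ := by
      apply Perm.eq_top_of_isMultiplyPretransitive
      rwa [Nat.card_eq_fintype_card]
    refine ⟨?_, by rw [htop]; exact le_top⟩
    obtain ⟨a, b, hab⟩ : ∃ a b : α, a ≠ b := by
      have : Nontrivial α := Fintype.one_lt_card_iff_nontrivial.1 (by omega)
      exact exists_pair_ne α
    refine ⟨Equiv.swap a b, by rw [htop]; trivial, ?_, ?_⟩
    · intro h1
      have h2 : Equiv.swap a b a = (1 : Perm α) a := by rw [h1]
      simp only [Equiv.swap_apply_left, Perm.one_apply] at h2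
      exact hab h2.symm
    · rw [Perm.card_support_swap hab]
      omega

end Cfsg.Agent.Lib.Perm.MinDegree
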